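import Mathlib
import Cfsg.Agent.Lib.Involves
import Cfsg.Agent.SporadicB.DihedralLift
import Cfsg.Agent.PLocal.S4FreeNoS3

/-!
# Sections isomorphic to `S₃` and inverted 3-elements

* `involves_of_inverted` : a nontrivial 3-element inverted by some element gives a section `S₃`;
* `exists_of_involves` : conversely a section `S₃` gives a nontrivial 3-element inverted by a 2-element;
* `centralizes` : in an `S₃`-free group the 2-elements normalizing a 3-subgroup centralize it.
-/

set_option autoImplicit false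
set_option linter.style.haveILetI false

namespace Cfsg.Agent.H211.RealThree

open Cfsg.Agent.Lib.Involves

/-- Two involutions with product of order 3 give a section `S₃`. -/
theorem involves_of_two {G : Type*} [Group G] {u v : G} (hu : u * u = 1) (hv : v * v = 1)
    (h3 : (u * v) ^ 3 = 1) (h1 : u * v ≠ 1) : Lib.Involves.Involves G (Equiv.Perm (Fin 3)) := by
  have key : ∀ w : G, w * w = 1 → w ^ 3 = 1 → w = 1 := by
    intro w h2 h3
    have : w ^ 3 = w * w * w := by rw [pow_succ, pow_two]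
    rw [this, h2, one_mul] at h3
    exact h3
  have hu1 : u ≠ 1 := by
    rintro rfl
    rw [one_mul] at h3 h1
    exact h1 (key v hv h3)
  have hv1 : v ≠ 1 := by
    rintro rfl
    rw [mul_one] at h3 h1
    exact h1 (key u hu h3)
  haveI : Fact (Nat.Prime 3) := ⟨Nat.prime_three⟩
  haveI : Fact (Nat.Prime 2) := ⟨Nat.prime_two⟩
  obtain ⟨f⟩ := SporadicB.DihedralLift.closure_pair_equiv_dihedral' (x := u) (y := v)
    (orderOf_eq_prime (by rw [pow_two]; exact hu) hu1) (orderOf_eq_prime (by rw [pow_two]; exact hv) hv1)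
    (orderOf_eq_prime h3 h1)
  obtain ⟨g⟩ := SporadicB.DihedralLift.dihedral_three_equiv_perm
  exact of_subgroup (of_surjective (f.trans g).toMonoidHom (f.trans g).surjective)

/-- An element of order 3 inverted by some element gives a section `S₃`. -/
theorem involves_of_inverted' {G : Type*} [Group G] {y t : G} (hy1 : y ≠ 1) (hy : y ^ 3 = 1)
    (ht : t * y * t⁻¹ = y⁻¹) : Lib.Involves.Involves G (Equiv.Perm (Fin 3)) := by
  let H : Subgroup G := Subgroup.closure {y, t}
  have hyH : y ∈ H := Subgroup.subset_closure (by simp)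
  have htH : t ∈ H := Subgroup.subset_closure (by simp)
  let Y : H := ⟨y, hyH⟩
  let T : H := ⟨t, htH⟩
  have hYT : T * Y * T⁻¹ = Y⁻¹ := Subtype.ext ht
  have hty : t * y = y⁻¹ * t := by rw [← ht]; group
  have hty' : t * y⁻¹ = y * t := by
    have h1 : t * y⁻¹ * t⁻¹ = y := by
      calc t * y⁻¹ * t⁻¹ = (t * y * t⁻¹)⁻¹ := by group
        _ = y := by rw [ht, inv_inv]
    calc t * y⁻¹ = t * y⁻¹ * t⁻¹ * t := by group
      _ = y * t := by rw [h1]
  have hcomm : ∀ h : H, T * T * h = h * (T * T) := by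
    rintro ⟨h, hh⟩
    apply Subtype.ext
    change t * t * h = h * (t * t)
    induction hh using Subgroup.closure_induction with
    | mem x hx =>
      rcases hx with rfl | hx
      · rw [mul_assoc, hty, ← mul_assoc, hty', mul_assoc]
      · rw [Set.mem_singleton_iff] at hx
        subst hx
        rw [mul_assoc]
    | one => rw [mul_one, one_mul]
    | mul a b _ _ ha hb => rw [← mul_assoc, ha, mul_assoc, hb, mul_assoc]
    | inv a _ ha =>
      calc t * t * a⁻¹ = a⁻¹ * (a * (t * t)) * a⁻¹ := by group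
        _ = a⁻¹ * (t * t * a) * a⁻¹ := by rw [ha]
        _ = a⁻¹ * (t * t) := by group
  let N : Subgroup H := Subgroup.zpowers (T * T)
  haveI hN : N.Normal := by
    constructor
    rintro n ⟨k, rfl⟩ g
    have h1 : Commute g (T * T) := (hcomm g).symm
    have h2 : g * (T * T) ^ k * g⁻¹ = (T * T) ^ k := by
      rw [(h1.zpow_right k).eq]; group
    change g * (T * T) ^ k * g⁻¹ ∈ N
    rw [h2]
    exact ⟨k, rfl⟩
  apply of_subgroup (H := H)
  apply of_quotient (N := N)
  let π := QuotientGroup.mk' N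
  have hTT : π (T * T) = 1 := (QuotientGroup.eq_one_iff _).2 (Subgroup.mem_zpowers _)
  refine involves_of_two (u := π T) (v := π (T * Y)) ?_ ?_ ?_ ?_
  · rw [← map_mul, hTT]
  · have h1 : T * Y * (T * Y) = Y⁻¹ * (T * T) * Y := by
      rw [← hYT]; group
    rw [← map_mul, h1, map_mul, map_mul, hTT, mul_one, ← map_mul, inv_mul_cancel, map_one]
  · have h1 : π T * π (T * Y) = π Y := by
      rw [← map_mul, ← mul_assoc, map_mul, hTT, one_mul]
    rw [h1, ← map_pow]
    have h2 : Y ^ 3 = 1 := Subtype.ext hy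
    rw [h2, map_one]
  · have h1 : π T * π (T * Y) = π Y := by
      rw [← map_mul, ← mul_assoc, map_mul, hTT, one_mul]
    rw [h1]
    intro h0
    have h2 : Y ∈ N := (QuotientGroup.eq_one_iff _).1 h0
    obtain ⟨k, hk⟩ := h2
    have h3 : Commute T Y := by
      rw [← hk]
      exact ((Commute.refl T).mul_right (Commute.refl T)).zpow_right k
    have h4 : Y⁻¹ = Y := by
      rw [← hYT, h3.eq]; group
    have h5 : y⁻¹ = y := congrArg Subtype.val h4
    apply hy1
    have h6 : y * y = 1 := by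
      nth_rw 1 [← h5]
      exact inv_mul_cancel y
    have h7 : y ^ 3 = y * y * y := by rw [pow_succ, pow_two]
    rw [h7, h6, one_mul] at hy
    exact hy

/-- the relation passes to powers -/
theorem inverted_pow {G : Type*} [Group G] {y t : G} (ht : t * y * t⁻¹ = y⁻¹) (k : ℕ) :
    t * y ^ k * t⁻¹ = (y ^ k)⁻¹ := by
  have h1 : MulAut.conj t (y ^ k) = (MulAut.conj t y) ^ k := map_pow _ _ _
  rw [MulAut.conj_apply, MulAut.conj_apply, ht, inv_pow] at h1
  exact h1

/-- A nontrivial 3-element inverted by some element gives a section `S₃`. -/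
theorem involves_of_inverted {G : Type*} [Group G] {y t : G} (hy1 : y ≠ 1) (hy : ∃ n : ℕ, y ^ 3 ^ n = 1)
    (ht : t * y * t⁻¹ = y⁻¹) : Lib.Involves.Involves G (Equiv.Perm (Fin 3)) := by
  classical
  have h0 := Nat.find_spec hy
  have hn : Nat.find hy ≠ 0 := by
    intro h
    rw [h, pow_zero, pow_one] at h0
    exact hy1 h0
  obtain ⟨k, hk⟩ := Nat.exists_eq_succ_of_ne_zero hn
  have h1 : y ^ 3 ^ k ≠ 1 := Nat.find_min hy (by omega)
  refine involves_of_inverted' (y := y ^ 3 ^ k) (t := t) h1 ?_ (inverted_pow ht _)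
  rw [← pow_mul, ← pow_succ]
  rw [hk] at h0
  exact h0

/-- A section `S₃` gives a nontrivial 3-element inverted by a 2-element. -/
theorem exists_of_involves {G : Type*} [Group G] [Finite G]
    (h : Lib.Involves.Involves G (Equiv.Perm (Fin 3))) :
    ∃ y t : G, y ≠ 1 ∧ (∃ n : ℕ, y ^ 3 ^ n = 1) ∧ (∃ n : ℕ, t ^ 2 ^ n = 1) ∧ t * y * t⁻¹ = y⁻¹ := by
  obtain ⟨K, f, hf⟩ := h
  obtain ⟨y, t, h1, ⟨n, hn⟩, ⟨m, hm⟩, h4⟩ := PLocal.S4FreeNoS3.exists_inverted f hf
  refine ⟨y, t, ?_, ⟨n, ?_⟩, ⟨m, ?_⟩, ?_⟩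
  · intro h
    apply h1
    have : y = 1 := Subtype.ext h
    rw [this, map_one]
  · exact congrArg Subtype.val hn
  · exact congrArg Subtype.val hm
  · exact congrArg Subtype.val h4

/-- In a group without section `S₃` a 2-element normalizing a 3-subgroup centralizes it. -/
theorem centralizes {G : Type*} [Group G] (h : ¬ Lib.Involves.Involves G (Equiv.Perm (Fin 3)))
    {Q : Subgroup G} (hQ : IsPGroup 3 Q) {u : G} (hu : ∃ n : ℕ, u ^ 2 ^ n = 1)
    (huQ : u ∈ Subgroup.normalizer (Q : Set G)) : ∀ x ∈ Q, u * x = x * u := by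
  -- all powers `u ^ 2 ^ (n - j)` centralize
  obtain ⟨n, hn⟩ := hu
  have key : ∀ j, j ≤ n → ∀ x ∈ Q, u ^ 2 ^ (n - j) * x = x * u ^ 2 ^ (n - j) := by
    intro j
    induction j with
    | zero =>
      intro _ x _
      rw [Nat.sub_zero, hn, one_mul, mul_one]
    | succ j ih =>
      intro hj x hx
      have ih' := ih (by omega)
      set w := u ^ 2 ^ (n - (j + 1)) with hw
      have hww : w * w = u ^ 2 ^ (n - j) := by
        rw [hw, ← pow_two, ← pow_mul, ← pow_succ]
        congr 2
        omega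
      rw [← hww] at ih'
      have hwN : w ∈ Subgroup.normalizer (Q : Set G) := Subgroup.pow_mem _ huQ _
      by_contra hne
      set y := x⁻¹ * (w * x * w⁻¹) with hy
      have hwx : w * x * w⁻¹ ∈ Q := (Subgroup.mem_normalizer_iff.1 hwN x).1 hx
      have hyQ : y ∈ Q := Q.mul_mem (Q.inv_mem hx) hwx
      have hy1 : y ≠ 1 := by
        intro h0
        apply hne
        have h1 : w * x * w⁻¹ = x := by
          have : x * y = w * x * w⁻¹ := by rw [hy]; group
          rw [← this, h0, mul_one]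
        calc w * x = w * x * w⁻¹ * w := by group
          _ = x * w := by rw [h1]
      have hinv : w * y * w⁻¹ = y⁻¹ := by
        have h2 : w * w * x * (w * w)⁻¹ = x := by
          rw [ih' x hx]; group
        calc w * y * w⁻¹ = (w * x * w⁻¹)⁻¹ * (w * w * x * (w * w)⁻¹) := by rw [hy]; group
          _ = (w * x * w⁻¹)⁻¹ * x := by rw [h2]
          _ = y⁻¹ := by rw [hy]; group
      obtain ⟨m, hm⟩ := hQ ⟨y, hyQ⟩
      exact h (involves_of_inverted hy1 ⟨m, congrArg Subtype.val hm⟩ hinv)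
  have h1 := key n le_rfl
  rw [Nat.sub_self, pow_zero, pow_one] at h1
  exact h1

/-- Criterion: if 2-elements normalizing 3-subgroups centralize them, then `S₃` is not involved. -/
theorem not_involves_of_centralizes {G : Type*} [Group G] [Finite G]
    (h : ∀ Q : Subgroup G, IsPGroup 3 Q → ∀ u : G, (∃ n : ℕ, u ^ 2 ^ n = 1) →
      u ∈ Subgroup.normalizer (Q : Set G) → ∀ x ∈ Q, u * x = x * u) :
    ¬ Lib.Involves.Involves G (Equiv.Perm (Fin 3)) := by
  intro hi
  obtain ⟨y, t, hy1, ⟨n, hn⟩, ht, hinv⟩ := exists_of_involves hi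
  have hQ : IsPGroup 3 (Subgroup.zpowers y) := by
    rintro ⟨x, hx⟩
    obtain ⟨k, rfl⟩ := hx
    refine ⟨n, Subtype.ext ?_⟩
    change (y ^ k) ^ 3 ^ n = 1
    rw [← zpow_natCast, ← zpow_mul, mul_comm, zpow_mul, zpow_natCast, hn, one_zpow]
  have hN : t ∈ Subgroup.normalizer (Subgroup.zpowers y : Set G) := by
    rw [Subgroup.mem_normalizer_iff]
    intro x
    constructor
    · rintro ⟨k, rfl⟩
      refine ⟨-k, ?_⟩
      change y ^ (-k) = t * y ^ k * t⁻¹
      have h1 : MulAut.conj t (y ^ k) = (MulAut.conj t y) ^ k := map_zpow _ _ _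
      rw [MulAut.conj_apply, MulAut.conj_apply, hinv, inv_zpow] at h1
      rw [h1, zpow_neg]
    · rintro ⟨k, hk⟩
      have hk' : y ^ k = t * x * t⁻¹ := hk
      refine ⟨-k, ?_⟩
      change y ^ (-k) = x
      have h1 : MulAut.conj t (y ^ (-k)) = (MulAut.conj t y) ^ (-k) := map_zpow _ _ _
      rw [MulAut.conj_apply, MulAut.conj_apply, hinv, inv_zpow', neg_neg, hk'] at h1
      calc y ^ (-k) = t⁻¹ * (t * y ^ (-k) * t⁻¹) * t := by group
        _ = x := by rw [h1]; group
  have h2 := h _ hQ t ht hN y (Subgroup.mem_zpowers y)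
  have h3 : y⁻¹ = y := by rw [← hinv, h2]; group
  apply hy1
  have h4 : y * y = 1 := by
    nth_rw 1 [← h3]
    exact inv_mul_cancel y
  have h5 : orderOf y ∣ 2 := orderOf_dvd_of_pow_eq_one (by rw [pow_two]; exact h4)
  have h6 : orderOf y ∣ 3 ^ n := orderOf_dvd_of_pow_eq_one hn
  have h7 := Nat.dvd_gcd h5 h6
  rw [(Nat.Coprime.pow_right n (by norm_num : Nat.Coprime 2 3)).gcd_eq_one, Nat.dvd_one, orderOf_eq_one_iff] at h7
  exact h7

end Cfsg.Agent.H211.RealThree
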