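import Mathlib
import Cfsg.Prelude.Def_Classical
import Cfsg.Agent.Lib.Involves
import Cfsg.Agent.H211.RealThree

/-!
# Sections `S₃` of `PSL₂(F)` (characteristic different from 3) and of `PSU₃(2^n)`
-/

set_option autoImplicit false
set_option linter.style.haveILetI false

namespace Cfsg.Agent.H211.SThreeRows

open Matrix Cfsg.Agent.Lib.Involves Cfsg.Agent.H211.RealThree

/-- An inverted element of order 3 gives a section `S₃` modulo the centre. -/
theorem involves_center_quotient {H : Type*} [Group H] {Y T : H} (hY1 : Y ≠ 1) (h3 : Y ^ 3 = 1)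
    (hT : T * Y * T⁻¹ = Y⁻¹) : Lib.Involves.Involves (H ⧸ Subgroup.center H) (Equiv.Perm (Fin 3)) := by
  let π := QuotientGroup.mk' (Subgroup.center H)
  refine involves_of_inverted' (y := π Y) (t := π T) ?_ ?_ ?_
  · intro h0
    have h1 : Y ∈ Subgroup.center H := (QuotientGroup.eq_one_iff _).1 h0
    have h2 : T * Y = Y * T := Subgroup.mem_center_iff.1 h1 T
    have h4 : Y⁻¹ = Y := by rw [← hT, h2]; group
    apply hY1
    have h5 : Y * Y = 1 := by
      nth_rw 1 [← h4]
      exact inv_mul_cancel Y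
    have h6 : Y ^ 3 = Y * Y * Y := by rw [pow_succ, pow_two]
    rw [h6, h5, one_mul] at h3
    exact h3
  · rw [← map_pow, h3, map_one]
  · rw [← map_mul, ← map_inv, ← map_mul, hT, map_inv]

/-- the element of order 3 -/
def Y3 (F : Type*) [Field F] : SpecialLinearGroup (Fin 2) F := ⟨!![0, 1; -1, -1], by simp [Matrix.det_fin_two_of]⟩

theorem Y3_pow (F : Type*) [Field F] : Y3 F ^ 3 = 1 := by
  apply Subtype.ext
  change ((Y3 F ^ 3 : SpecialLinearGroup (Fin 2) F) : Matrix (Fin 2) (Fin 2) F) = 1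
  rw [Matrix.SpecialLinearGroup.coe_pow]
  change (!![0, 1; -1, -1] : Matrix (Fin 2) (Fin 2) F) ^ 3 = 1
  ext i j
  fin_cases i <;> fin_cases j <;> simp [pow_succ, Matrix.mul_apply, Fin.sum_univ_two]

theorem Y3_ne_one (F : Type*) [Field F] : Y3 F ≠ 1 := by
  intro h
  have h1 := congrArg (fun A : SpecialLinearGroup (Fin 2) F => A.1 0 1) h
  simp [Y3] at h1

theorem psl_two_of_sol {F : Type*} [Field F] {a c : F} (h : a ^ 2 + a * c + c ^ 2 = -1) :
    Lib.Involves.Involves (ProjectiveSpecialLinearGroup (Fin 2) F) (Equiv.Perm (Fin 3)) := by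
  let T : SpecialLinearGroup (Fin 2) F := ⟨!![a, a + c; c, -a], by
    rw [Matrix.det_fin_two_of]
    linear_combination -h⟩
  refine involves_center_quotient (Y := Y3 F) (T := T) (Y3_ne_one F) (Y3_pow F) ?_
  have h1 : T * Y3 F = (Y3 F)⁻¹ * T := by
    apply Subtype.ext
    change ((T * Y3 F : SpecialLinearGroup (Fin 2) F) : Matrix (Fin 2) (Fin 2) F) =
      (((Y3 F)⁻¹ * T : SpecialLinearGroup (Fin 2) F) : Matrix (Fin 2) (Fin 2) F)
    rw [Matrix.SpecialLinearGroup.coe_mul, Matrix.SpecialLinearGroup.coe_mul, Matrix.SpecialLinearGroup.coe_inv]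
    change (!![a, a + c; c, -a] : Matrix (Fin 2) (Fin 2) F) * !![0, 1; -1, -1] =
      (!![0, 1; -1, -1] : Matrix (Fin 2) (Fin 2) F).adjugate * !![a, a + c; c, -a]
    rw [Matrix.adjugate_fin_two_of]
    ext i j
    fin_cases i <;> fin_cases j <;> simp [Matrix.mul_apply, Fin.sum_univ_two] <;> ring
  rw [h1]; group

/-- characteristic 2 -/
theorem psl_two_char_two {F : Type*} [Field F] [CharP F 2] :
    Lib.Involves.Involves (ProjectiveSpecialLinearGroup (Fin 2) F) (Equiv.Perm (Fin 3)) := by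
  refine psl_two_of_sol (a := 1) (c := 0) ?_
  have h2 : (2 : F) = 0 := CharTwo.two_eq_zero
  linear_combination h2

/-- odd characteristic different from 3 -/
theorem psl_two_odd {F : Type*} [Field F] [Fintype F] (h2 : (2 : F) ≠ 0) (h3 : (3 : F) ≠ 0) :
    Lib.Involves.Involves (ProjectiveSpecialLinearGroup (Fin 2) F) (Equiv.Perm (Fin 3)) := by
  have hchar : ringChar F ≠ 2 := by
    intro h
    apply h2
    have h1 := ringChar.Nat.cast_ringChar (R := F)
    rw [h] at h1
    exact_mod_cast h1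
  obtain ⟨u, v, huv⟩ : ∃ u v : F, u ^ 2 + 3 * v ^ 2 = -1 := by
    have h := FiniteField.exists_root_sum_quadratic (R := F)
      (f := Polynomial.X ^ 2) (g := Polynomial.C 3 * Polynomial.X ^ 2 + 1)
      (Polynomial.degree_X_pow 2) (by
        have := Polynomial.degree_quadratic (a := (3 : F)) (b := 0) (c := 1) h3
        simpa using this)
      (FiniteField.odd_card_of_char_ne_two hchar)
    obtain ⟨a, b, hab⟩ := h
    refine ⟨a, b, ?_⟩
    simp at hab
    linear_combination hab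
  refine psl_two_of_sol (a := u - v) (c := 2 * v) ?_
  linear_combination huv

/-! ### Unitary groups -/

/-- the permutation matrix of a 3-cycle -/
def C3 (F : Type*) [Field F] : SpecialLinearGroup (Fin 3) F :=
  ⟨!![0, 1, 0; 0, 0, 1; 1, 0, 0], by simp [Matrix.det_fin_three]⟩

/-- the permutation matrix of a transposition, up to sign -/
def T2 (F : Type*) [Field F] : SpecialLinearGroup (Fin 3) F :=
  ⟨!![0, -1, 0; -1, 0, 0; 0, 0, -1], by simp [Matrix.det_fin_three]⟩

theorem C3_mem (F : Type*) [Field F] (q : ℕ) : C3 F ∈ Cfsg.SU 3 F q := by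
  intro u v
  change Cfsg.hermForm 3 F q (!![0, 1, 0; 0, 0, 1; 1, 0, 0] *ᵥ u) (!![0, 1, 0; 0, 0, 1; 1, 0, 0] *ᵥ v) = _
  simp [Cfsg.hermForm, Fin.sum_univ_three, Matrix.mulVec, dotProduct]
  ring

theorem T2_mem (F : Type*) [Field F] [CharP F 2] (q : ℕ) : T2 F ∈ Cfsg.SU 3 F q := by
  intro u v
  have h : (-1 : F) = 1 := CharTwo.neg_eq 1
  change Cfsg.hermForm 3 F q (!![0, -1, 0; -1, 0, 0; 0, 0, -1] *ᵥ u) (!![0, -1, 0; -1, 0, 0; 0, 0, -1] *ᵥ v) = _
  rw [h]
  simp [Cfsg.hermForm, Fin.sum_univ_three, Matrix.mulVec, dotProduct]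
  ring

theorem psu_three {F : Type*} [Field F] [CharP F 2] (q : ℕ) :
    Lib.Involves.Involves (Cfsg.PSU 3 F q) (Equiv.Perm (Fin 3)) := by
  refine involves_center_quotient (Y := ⟨C3 F, C3_mem F q⟩) (T := ⟨T2 F, T2_mem F q⟩) ?_ ?_ ?_
  · intro h
    have h1 := congrArg (fun A : Cfsg.SU 3 F q => (A.1).1 0 0) h
    simp [C3] at h1
  · apply Subtype.ext
    change C3 F ^ 3 = 1
    apply Subtype.ext
    change ((C3 F ^ 3 : SpecialLinearGroup (Fin 3) F) : Matrix (Fin 3) (Fin 3) F) = 1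
    rw [Matrix.SpecialLinearGroup.coe_pow]
    change (!![0, 1, 0; 0, 0, 1; 1, 0, 0] : Matrix (Fin 3) (Fin 3) F) ^ 3 = 1
    ext i j
    fin_cases i <;> fin_cases j <;> simp [pow_succ, Matrix.mul_apply, Fin.sum_univ_three]
  · have h1 : T2 F * C3 F = (C3 F)⁻¹ * T2 F := by
      have h2 : C3 F * (T2 F * C3 F) = T2 F := by
        apply Subtype.ext
        change ((C3 F * (T2 F * C3 F) : SpecialLinearGroup (Fin 3) F) : Matrix (Fin 3) (Fin 3) F) = (T2 F).1
        rw [Matrix.SpecialLinearGroup.coe_mul, Matrix.SpecialLinearGroup.coe_mul]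
        change (!![0, 1, 0; 0, 0, 1; 1, 0, 0] : Matrix (Fin 3) (Fin 3) F) *
          (!![0, -1, 0; -1, 0, 0; 0, 0, -1] * !![0, 1, 0; 0, 0, 1; 1, 0, 0]) = !![0, -1, 0; -1, 0, 0; 0, 0, -1]
        ext i j
        fin_cases i <;> fin_cases j <;> simp [Matrix.mul_apply, Fin.sum_univ_three]
      nth_rw 2 [← h2]
      group
    apply Subtype.ext
    change T2 F * C3 F * (T2 F)⁻¹ = (C3 F)⁻¹
    rw [h1]; group

end Cfsg.Agent.H211.SThreeRows
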